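import Cfsg.Agent.BabyComp.Sec
import Cfsg.Agent.Co2Type.Quad

/-!
# S1920, the rows of the Baby Monster and of the Monster: centralizers of characteristic 2 (helper877)

`q : B → X` onto with kernel `{1, τ}`, `B = C_Γ(θ τ)` : if `w` or `w τ` is conjugate in `Γ` to the central involution of a
large extraspecial group then `C_X(q w)` is of characteristic 2.
-/

set_option autoImplicit false
set_option linter.unusedSectionVars false

open Subgroup

namespace Cfsg.Agent.H877.C3

open Cfsg Cfsg.Agent.R01.Lifts Cfsg.Agent.BabyComp Cfsg.Agent.CpAut.TwoAbs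

universe u v w

variable {X : Type u} {B : Type v} {Γ : Type w} [Group X] [Group B] [Group Γ] [Finite X] [Finite B] [Finite Γ]
  {q : B →* X} {τ : B}

/-- A lift of odd order. -/
theorem exists_odd_lift (hq : Ext q τ) {c : X} (ho : Odd (orderOf c)) {w : B} (hc : c * q w = q w * c) :
    ∃ b : B, q b = c ∧ Odd (orderOf b) ∧ b * w = w * b := by
  obtain ⟨a, rfl⟩ := hq.surj c
  set m := orderOf (q a) with hm
  have hzz : τ ^ 2 = 1 := by rw [pow_two, hq.zz]
  have h1 : a ^ m = 1 ∨ a ^ m = τ := by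
    rw [← hq.ker, map_pow, hm, pow_orderOf_eq_one]
  obtain ⟨k, hk⟩ := ho
  have h2 : (a ^ m) ^ 2 = 1 := by
    rcases h1 with h | h
    · rw [h, one_pow]
    · rw [h, hzz]
  have hsq : (a * a) * w = w * (a * a) := by
    rcases hq.conj_of_commute (g := a) (a := w) hc with h | h
    · rw [mul_inv_eq_iff_eq_mul] at h
      rw [mul_assoc, h, ← mul_assoc, h, mul_assoc]
    · rw [mul_inv_eq_iff_eq_mul] at h
      calc a * a * w = a * (a * w) := mul_assoc _ _ _
        _ = a * (w * τ * a) := by rw [h]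
        _ = (a * w) * (τ * a) := by group
        _ = w * τ * a * (τ * a) := by rw [h]
        _ = w * (τ * a) * (τ * a) := by group
        _ = w * (a * τ) * (τ * a) := by rw [hq.comm a]
        _ = w * a * (τ * τ) * a := by group
        _ = w * (a * a) := by rw [hq.zz, mul_one, mul_assoc]
  refine ⟨(a * a) ^ (k + 1), ?_, ?_, ?_⟩
  · rw [← pow_two, ← pow_mul, map_pow, show 2 * (k + 1) = m + 1 by omega, pow_succ, hm, pow_orderOf_eq_one, one_mul]
  · have h3 : ((a * a) ^ (k + 1)) ^ m = 1 := by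
      rw [← pow_two, ← pow_mul, ← pow_mul, show 2 * ((k + 1) * m) = m * 2 * (k + 1) by ring, pow_mul, pow_mul, h2,
        one_pow]
    exact Odd.of_dvd_nat ⟨k, hk⟩ (orderOf_dvd_of_pow_eq_one h3)
  · exact (show Commute (a * a) w from hsq).pow_left _

/-- An element of odd order which commutes with `r` modulo `τ`. -/
theorem comm_of_odd (hq : Ext q τ) {b r : B} (ho : Odd (orderOf b)) (hc : q b * q r = q r * q b) : b * r = r * b := by
  rcases hq.conj_of_commute (g := b) (a := r) hc with h | h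
  · exact mul_inv_eq_iff_eq_mul.1 h
  · exfalso
    have key : ∀ n : ℕ, b ^ n * r * (b ^ n)⁻¹ = r * τ ^ n := by
      intro n
      induction n with
      | zero => simp
      | succ n ih =>
        have h2 : b * τ ^ n * b⁻¹ = τ ^ n := by
          rw [mul_inv_eq_iff_eq_mul]
          exact (show Commute b τ from hq.comm b).pow_right n
        calc b ^ (n + 1) * r * (b ^ (n + 1))⁻¹ = b * (b ^ n * r * (b ^ n)⁻¹) * b⁻¹ := by rw [pow_succ']; group
          _ = (b * r * b⁻¹) * (b * τ ^ n * b⁻¹) := by rw [ih]; group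
          _ = r * τ * τ ^ n := by rw [h, h2]
          _ = r * τ ^ (n + 1) := by rw [pow_succ', mul_assoc]
    have h1 := key (orderOf b)
    rw [pow_orderOf_eq_one, pow_odd_of_sq hq.zz ho] at h1
    apply hq.zne
    have : r = r * τ := by simpa using h1
    exact mul_eq_left.1 this.symm

/-- **The centralizer is of characteristic 2.** -/
theorem ct_cent (hq : Ext q τ) {θ : B →* Γ} (hθ : Function.Injective θ)
    (hr : ∀ x : Γ, x * θ τ = θ τ * x → ∃ b, θ b = x) {w : B} {Q : Subgroup Γ} (hQ : IsPGroup 2 Q)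
    (hn : ∀ x, x * θ w = θ w * x → ∀ r ∈ Q, x * r * x⁻¹ ∈ Q)
    (hc : ∀ x, x * θ w = θ w * x → (∀ r ∈ Q, x * r = r * x) → x ∈ Q)
    (hQw : ∀ r ∈ Q, r * θ w = θ w * r) : IsOfCharacteristicTwo ↥(centralizer ({q w} : Set X)) := by
  have : Fact (Nat.Prime 2) := ⟨Nat.prime_two⟩
  set C := centralizer ({q w} : Set X) with hC
  let D : Subgroup B := centralizer ({w} : Set B)
  have hcore : IsPGroup 2 ↥(pCore 2 ↥D) := Lib.Cores.pCore_isPGroup 2
  have hcn : (pCore 2 ↥D).Normal := Lib.Cores.pCore_normal 2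
  have hchr : (pCore 2 ↥D).Characteristic := Lib.Cores.pCore_characteristic 2
  let P : Subgroup B := (pCore 2 ↥D).map D.subtype
  -- `P` is invariant
  have hP : ∀ b : B, q b * q w = q w * q b → ∀ r ∈ P, b * r * b⁻¹ ∈ P := by
    intro b hb
    have hD : D.map (MulAut.conj b).toMonoidHom = D := by
      have h1 : ∀ b : B, q b * q w = q w * q b → ∀ r ∈ D, b * r * b⁻¹ ∈ D := by
        intro b hb r hr'
        have hr2 : r * w = w * r := mem_centralizer_singleton_iff.1 hr'
        have hbi : q b⁻¹ * q w = q w * q b⁻¹ := by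
          rw [map_inv, inv_mul_eq_iff_eq_mul, ← mul_assoc, hb, mul_inv_cancel_right]
        show b * r * b⁻¹ ∈ centralizer ({w} : Set B)
        rw [mem_centralizer_singleton_iff]
        have h2 : b⁻¹ * w * b = w ∨ b⁻¹ * w * b = w * τ := by
          have := hq.conj_of_commute (g := b⁻¹) (a := w) hbi
          rwa [inv_inv] at this
        have h3 : r * (b⁻¹ * w * b) = (b⁻¹ * w * b) * r := by
          rcases h2 with h2 | h2
          · rw [h2, hr2]
          · rw [h2, ← mul_assoc, hr2, mul_assoc, hq.comm r, ← mul_assoc]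
        calc b * r * b⁻¹ * w = b * (r * (b⁻¹ * w * b)) * b⁻¹ := by group
          _ = b * ((b⁻¹ * w * b) * r) * b⁻¹ := by rw [h3]
          _ = w * (b * r * b⁻¹) := by group
      have hbi : q b⁻¹ * q w = q w * q b⁻¹ := by
        rw [map_inv, inv_mul_eq_iff_eq_mul, ← mul_assoc, hb, mul_inv_cancel_right]
      apply le_antisymm
      · rintro _ ⟨r, hr', rfl⟩
        exact h1 b hb r hr'
      · intro r hr'
        refine ⟨b⁻¹ * r * b, ?_, ?_⟩
        · have := h1 b⁻¹ hbi r hr'
          rwa [inv_inv] at this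
        · show b * (b⁻¹ * r * b) * b⁻¹ = r
          group
    let β : ↥D ≃* ↥D := (D.equivMapOfInjective (MulAut.conj b).toMonoidHom (MulAut.conj b).injective).trans
      (MulEquiv.subgroupCongr hD)
    rintro _ ⟨r, hr', rfl⟩
    have h1 := characteristic_iff_le_comap.1 hchr β hr'
    exact ⟨β r, h1, rfl⟩
  let R : Subgroup ↥C := (P.map q).subgroupOf C
  have hRn : R.Normal := by
    constructor
    intro r hr' c
    have hc1 := mem_centralizer_singleton_iff.1 c.2
    obtain ⟨b, hb⟩ := hq.surj c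
    rw [mem_subgroupOf] at hr' ⊢
    obtain ⟨a, ha, har⟩ := hr'
    refine ⟨b * a * b⁻¹, hP b (by rw [hb]; exact hc1) a ha, ?_⟩
    rw [map_mul, map_mul, map_inv, hb, har]
    rfl
  have hR2 : IsPGroup 2 ↥R := ((hcore.map D.subtype).map q).comap_subtype
  refine ct_of hRn hR2 ?_
  rintro ⟨c, hcC⟩ hcR ho
  rw [Subgroup.orderOf_mk] at ho
  apply Subtype.ext
  change c = 1
  obtain ⟨b, hb, hbo, hbw⟩ := exists_odd_lift hq ho (w := w) (mem_centralizer_singleton_iff.1 hcC)
  -- `b` commutes with `P`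
  have hbP : ∀ r ∈ P, b * r = r * b := by
    intro r hr'
    apply comm_of_odd hq hbo
    have hrC : q r ∈ C := by
      obtain ⟨d, -, rfl⟩ := hr'
      rw [hC, mem_centralizer_singleton_iff, ← map_mul]
      have := mem_centralizer_singleton_iff.1 d.2
      show q ((d : B) * w) = _
      rw [this, map_mul]
      rfl
    have h1 := mem_centralizer_iff.1 hcR ⟨q r, hrC⟩ (mem_subgroupOf.2 ⟨r, hr', rfl⟩)
    have h2 : q r * c = c * q r := congrArg Subtype.val h1
    rw [hb, h2]
  -- `Q ∩ B ≤ P`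
  have hQP : Q.comap θ ≤ P := by
    have hle : Q.comap θ ≤ D := by
      intro r hr'
      show r ∈ centralizer ({w} : Set B)
      rw [mem_centralizer_singleton_iff]
      apply hθ
      rw [map_mul, map_mul]
      exact hQw _ hr'
    have h1 : (Q.comap θ).subgroupOf D ≤ pCore 2 ↥D := by
      refine Lib.Cores.le_pCore ?_ ?_
      · constructor
        intro r hr' d
        rw [mem_subgroupOf] at hr' ⊢
        show θ ((d : B) * r * (d : B)⁻¹) ∈ Q
        rw [map_mul, map_mul, map_inv]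
        refine hn _ ?_ _ hr'
        rw [← map_mul, mem_centralizer_singleton_iff.1 d.2, map_mul]
      · refine IsPGroup.comap_subtype ?_
        exact hQ.comap_of_injective θ hθ
    intro r hr'
    exact ⟨⟨r, hle hr'⟩, h1 (mem_subgroupOf.2 hr'), rfl⟩
  have hb1 : θ b = 1 := by
    refine Abs.odd_eq_one hQ (T := θ τ) (g := θ w) (by rw [← map_mul, hq.zz, map_one]) hn hc
      (by rw [← map_mul, ← map_mul, hq.comm]) (by rw [← map_mul, hbw, map_mul])
      (by rw [← map_mul, ← map_mul, hq.comm]) ?_ ?_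
    · rw [orderOf_injective θ hθ]
      exact hbo.coprime_two_right
    · intro r hr' hrT
      obtain ⟨s, rfl⟩ := hr r hrT
      rw [← map_mul, ← map_mul]
      exact congrArg θ (hbP s (hQP hr'))
  rw [← hb, hθ (hb1.trans (map_one θ).symm), map_one]

/-- **The centralizer is of characteristic 2**, in terms of `Large`. -/
theorem ct_of_large (hq : Ext q τ) {θ : B →* Γ} (hθ : Function.Injective θ)
    (hr : ∀ x : Γ, x * θ τ = θ τ * x → ∃ b, θ b = x) {Q : Subgroup Γ} {z : Γ}
    (hL : Cfsg.Agent.Co2Type.Quad.Large Q z) {v w : B} (hvw : w = v ∨ w = v * τ) (hw : IsConj z (θ w)) :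
    IsOfCharacteristicTwo ↥(centralizer ({q v} : Set X)) := by
  have hqv : q w = q v := by
    rcases hvw with rfl | rfl
    · rfl
    · rw [map_mul, hq.mapz, mul_one]
  rw [← hqv]
  obtain ⟨g, hg⟩ := isConj_iff.1 hw
  have hz : g⁻¹ * θ w * g = z := by rw [← hg]; group
  have hcomm : ∀ x : Γ, x * θ w = θ w * x → (g⁻¹ * x * g) * z = z * (g⁻¹ * x * g) := by
    intro x hx
    rw [← hz]
    calc g⁻¹ * x * g * (g⁻¹ * θ w * g) = g⁻¹ * (x * θ w) * g := by group
      _ = g⁻¹ * (θ w * x) * g := by rw [hx]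
      _ = _ := by group
  have hmem : ∀ x : Γ, x ∈ Q.comap (MulAut.conj g⁻¹).toMonoidHom ↔ g⁻¹ * x * g ∈ Q := by
    intro x
    show g⁻¹ * x * g⁻¹⁻¹ ∈ Q ↔ _
    rw [inv_inv]
  refine ct_cent hq hθ hr (Q := Q.comap (MulAut.conj g⁻¹).toMonoidHom) ?_ ?_ ?_ ?_
  · rintro ⟨x, hx⟩
    rw [hmem] at hx
    refine ⟨2, Subtype.ext ?_⟩
    show x ^ 2 ^ 2 = 1
    have h1 : (g⁻¹ * x * g) ^ 4 = 1 := by
      rcases hL.sq _ hx with h2 | h2
      · rw [show (4 : ℕ) = 2 * 2 by norm_num, pow_mul, pow_two (g⁻¹ * x * g), h2, one_pow]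
      · rw [show (4 : ℕ) = 2 * 2 by norm_num, pow_mul, pow_two (g⁻¹ * x * g), h2, pow_two, hL.z_sq]
    have h2 : (g⁻¹ * x * g) ^ 4 = g⁻¹ * x ^ 4 * g := by
      have := conj_pow (a := g⁻¹) (b := x) (i := 4)
      rwa [inv_inv] at this
    rw [h2] at h1
    have h3 : x ^ 4 = g * (g⁻¹ * x ^ 4 * g) * g⁻¹ := by group
    rw [show (2 : ℕ) ^ 2 = 4 by norm_num, h3, h1]
    group
  · intro x hx r hr'
    rw [hmem] at hr' ⊢
    have h1 := hL.conj_mem _ (hcomm x hx) _ hr'
    have h2 : g⁻¹ * (x * r * x⁻¹) * g = g⁻¹ * x * g * (g⁻¹ * r * g) * (g⁻¹ * x * g)⁻¹ := by group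
    rwa [h2]
  · intro x hx hxr
    rw [hmem]
    refine hL.self _ (hcomm x hx) ?_
    intro r hr'
    have h1 := hxr (g * r * g⁻¹) (by
      rw [hmem]
      have : g⁻¹ * (g * r * g⁻¹) * g = r := by group
      rwa [this])
    calc g⁻¹ * x * g * r = g⁻¹ * (x * (g * r * g⁻¹)) * g := by group
      _ = g⁻¹ * (g * r * g⁻¹ * x) * g := by rw [h1]
      _ = r * (g⁻¹ * x * g) := by group
  · intro r hr'
    rw [hmem] at hr'
    have h1 := hL.comm_z _ hr'
    rw [← hz] at h1
    calc r * θ w = g * (g⁻¹ * r * g * (g⁻¹ * θ w * g)) * g⁻¹ := by group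
      _ = g * (g⁻¹ * θ w * g * (g⁻¹ * r * g)) * g⁻¹ := by rw [h1]
      _ = θ w * r := by group

/-- **`C_Γ(z)` is of characteristic 2**, in terms of `Large`. -/
theorem ct_large {Q : Subgroup Γ} {z : Γ} (hL : Cfsg.Agent.Co2Type.Quad.Large Q z) :
    IsOfCharacteristicTwo ↥(centralizer ({z} : Set Γ)) := by
  have hle : Q ≤ centralizer ({z} : Set Γ) := fun x hx => mem_centralizer_singleton_iff.2 (hL.comm_z x hx)
  refine ct_iff.2 ⟨Q.subgroupOf (centralizer {z}), ?_, ?_, ?_⟩
  · constructor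
    intro r hr' d
    rw [mem_subgroupOf] at hr' ⊢
    exact hL.conj_mem _ (mem_centralizer_singleton_iff.1 d.2) _ hr'
  · rintro ⟨⟨x, hxc⟩, hx⟩
    rw [mem_subgroupOf] at hx
    refine ⟨2, Subtype.ext (Subtype.ext ?_)⟩
    show x ^ 2 ^ 2 = 1
    rcases hL.sq _ hx with h2 | h2
    · rw [show (2 : ℕ) ^ 2 = 2 * 2 by norm_num, pow_mul, pow_two x, h2, one_pow]
    · rw [show (2 : ℕ) ^ 2 = 2 * 2 by norm_num, pow_mul, pow_two x, h2, pow_two, hL.z_sq]
  · intro x hx
    rw [mem_subgroupOf]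
    refine hL.self _ (mem_centralizer_singleton_iff.1 x.2) ?_
    intro r hr'
    have := mem_centralizer_iff.1 hx ⟨r, hle hr'⟩ (mem_subgroupOf.2 hr')
    exact (congrArg Subtype.val this).symm

end Cfsg.Agent.H877.C3
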