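import Cfsg.Agent.H877.C3.RedTwo
import Cfsg.Agent.BabyComp.BaseTwo

/-!
# S1920, the rows of the Baby Monster and of the Monster: all the involutions of the Baby Monster (helper877)
-/

set_option autoImplicit false
set_option linter.unusedSectionVars false

open Subgroup

namespace Cfsg.Agent.H877.C3

open Cfsg Cfsg.Agent.BabyComp Cfsg.Agent.CpAut.TwoAbs
open Cfsg.Agent.R01.Lifts Cfsg.Agent.MonsterN Cfsg.Agent.MonsterN.Lit Cfsg.Agent.BabyComp.Main

universe u v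

/-- The statement at the involution `u`. -/
def Good.{a, b} (X : Type a) [Group X] (u : X) : Prop :=
  IsOfCharacteristicTwo ↥(centralizer ({u} : Set X)) ∨
    ∃ (K : Subgroup X) (S : Type b) (_ : Group S) (f : ↥K →* S), Red u K f

variable {B : Type*} {X : Type u} {E : Type v} [Group B] [Group X] [Group E] [Finite B] [Finite X] [Finite E]
  {q : B →* X} {τ : B} {R : Set E}
variable {y : ℕ → B} {h : Pre y} {π : KK y →* E} {f₁ f₂ f₃ f₄ : B}

/-- **All the involutions.** -/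
theorem cases {Γ : Type*} [Group Γ] [Finite Γ] (hq : Ext q τ) (h10 : y 10 = τ) (D : KD h R π)
    (Fc : FusionType.Facts τ f₁ f₂ f₃ f₄) {θ : B →* Γ} {z : Γ}
    (hθ : Function.Injective θ) (hr : ∀ x : Γ, x * θ τ = θ τ * x → ∃ b, θ b = x)
    (hcz : IsConj z (θ (τ * (f₁ * f₂)))) (hcd : IsConj z (θ (f₁ * f₂ * f₃)))
    {Q : Subgroup Γ} (hL : Cfsg.Agent.Co2Type.Quad.Large Q z)
    (hc5 : IsConj f₁ (y 5)) (big : KEq.Big B τ (y 5))
    {F : Type*} [Field F] [Fintype F] {hF : Fintype.card F = 2 ^ 2}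
    (hR : Cfsg.Agent.BabyU.RootCfg.RootFacts hF R) (hX : Cfsg.Agent.BabyU.Key.Extra hF R)
    (Rt : Cfsg.Agent.BabyU.Lab.Roots E R)
    (hE : ∀ v : E, orderOf v = 2 → IsOfCharacteristicTwo ↥(centralizer ({v} : Set E)))
    {M₁ : Subgroup X} (Bs : BaseTwo.Base2 (q (y 5)) M₁) (u : X) (huu : u * u = 1) (hu1 : u ≠ 1) :
    ∃ g u' : X, u = g * u' * g⁻¹ ∧ Good.{u, v} X u' := by
  obtain ⟨σ, hσ⟩ := exists_sigma hq h10 D
  have H := data hq h10 D big hσ
  have hM : M₁ = (KK y).map q := BaseTwo.Base.eq_map hq h10 big Bs.toBase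
  have hidx : ∀ g h, g * q (y 5) = q (y 5) * g → h * q (y 5) = q (y 5) * h → g ∉ (KK y).map q →
      h ∉ (KK y).map q → g * h ∈ (KK y).map q := hM ▸ Bs.M_index
  have hA : Good.{u, v} X (q (y 5)) := Or.inr ⟨_, E, inferInstance, σ, red_A H hidx hE⟩
  -- case I
  have key : ∀ g, g⁻¹ * u * g ∈ M₁ → ∃ g u' : X, u = g * u' * g⁻¹ ∧ Good.{u, v} X u' := by
    intro g hg
    obtain ⟨k, hk, hqk⟩ := M_le hq h10 big Bs.toBase _ hg
    have hgu : u = g * q k * g⁻¹ := by rw [hqk]; group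
    have hkk : k * k = 1 := by
      refine lift_sq hR hX Rt hq h10 D hk ?_
      rw [hqk]
      calc g⁻¹ * u * g * (g⁻¹ * u * g) = g⁻¹ * (u * u) * g := by group
        _ = 1 := by rw [huu]; group
    have hqk1 : q k ≠ 1 := by
      intro e
      apply hu1
      rw [hgu, e]; group
    have hk1 : k ≠ 1 := fun e => hqk1 (by rw [e, map_one])
    have hkτ : k ≠ τ := fun e => hqk1 (by rw [e, hq.mapz])
    rcases Fc.classes k hkk hk1 hkτ with h1 | h1 | h1 | h1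
    · obtain ⟨c, hc⟩ := isConj_iff.1 (q.map_isConj (hc5.symm.trans h1))
      refine ⟨g * c, q (y 5), ?_, hA⟩
      rw [hgu, ← hc]; group
    · refine ⟨g, q k, hgu, Or.inl (ct_of_large hq hθ hr hL (v := k) (w := k * τ) (Or.inr rfl) ?_)⟩
      refine hcz.trans (θ.map_isConj ?_)
      rw [hq.comm]
      exact FusionType.conj_mul_t Fc.cen h1
    · exact ⟨g, q k, hgu, Or.inl (ct_of_large hq hθ hr hL (v := k) (w := k) (Or.inl rfl)
        (hcz.trans (θ.map_isConj h1)))⟩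
    · exact ⟨g, q k, hgu, Or.inl (ct_of_large hq hθ hr hL (v := k) (w := k) (Or.inl rfl)
        (hcd.trans (θ.map_isConj h1)))⟩
  rcases Bs.classes u huu hu1 with ⟨g, hg⟩ | ⟨d, hd, hc, hud⟩
  · exact key g hg
  -- case II
  obtain ⟨g, hg⟩ := isConj_iff.1 hd
  obtain ⟨t, ht⟩ : ∃ t, t = q (y 5) := ⟨_, rfl⟩
  rw [← ht] at hg hA Bs hidx hd hud
  have H' : ∃ (X₀ : Subgroup X) (σ : ↥X₀ →* E), M₁ = X₀ ∧ Sec.Data t σ :=
    ⟨_, σ, hM, by rw [ht]; exact H⟩
  clear hσ H hM hidx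
  obtain ⟨X₀, σ, hM, H⟩ := H'
  have hidx : ∀ g h, g * t = t * g → h * t = t * h → g ∉ X₀ → h ∉ X₀ → g * h ∈ X₀ := hM ▸ Bs.M_index
  obtain ⟨w, hw⟩ : ∃ w, w = g⁻¹ * u * g := ⟨_, rfl⟩
  have huw : u = g * w * g⁻¹ := by rw [hw]; group
  have hww : w * w = 1 := by
    rw [hw]
    calc g⁻¹ * u * g * (g⁻¹ * u * g) = g⁻¹ * (u * u) * g := by group
      _ = 1 := by rw [huu]; group
  have hwt : w * t = t * w := by
    have h1 : t = g⁻¹ * d * g := by rw [← hg]; group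
    rw [hw, h1]
    calc g⁻¹ * u * g * (g⁻¹ * d * g) = g⁻¹ * (u * d) * g := by group
      _ = g⁻¹ * (d * u) * g := by rw [hc]
      _ = g⁻¹ * d * g * (g⁻¹ * u * g) := by group
  have hcw : IsConj t (w * t) := by
    refine hud.trans (isConj_iff.2 ⟨g⁻¹, ?_⟩)
    rw [hw, ← hg]; group
  by_cases hwM : w ∈ M₁
  · exact key g (by rw [← hw]; exact hwM)
  by_cases hwc : IsConj t w
  · obtain ⟨c, hc'⟩ := isConj_iff.1 hwc
    refine ⟨g * c, t, ?_, hA⟩
    rw [huw, ← hc']; group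
  obtain ⟨K, x, f, hf⟩ := red_C H hidx hE hww hwt (hM ▸ hwM) (by
    intro g' hg'
    have htt := H.t_sq
    have hcw' : IsConj t (t * w) := hwt ▸ hcw
    have e1 : t * (t * w) = w := by rw [← mul_assoc, htt, one_mul]
    have h1 := Bs.uniq (t * w) (g' * t * g'⁻¹) hcw' (by rw [mul_assoc, hwt]) (by
      intro h2
      apply hwM
      have h3 : t ∈ M₁ := by rw [hM]; exact H.mem
      have h4 := mul_mem h3 h2
      rwa [e1] at h4) (isConj_iff.2 ⟨g', rfl⟩) (by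
      rw [e1]
      have hgi : g'⁻¹ * w = w * g'⁻¹ := by
        rw [inv_mul_eq_iff_eq_mul, ← mul_assoc, hg', mul_inv_cancel_right]
      calc g' * t * g'⁻¹ * w = g' * t * (g'⁻¹ * w) := by group
        _ = g' * (t * w) * g'⁻¹ := by rw [hgi]; group
        _ = (g' * w) * t * g'⁻¹ := by rw [← hwt]; group
        _ = w * (g' * t * g'⁻¹) := by rw [hg']; group) (by
      rw [e1]
      refine hcw.trans (isConj_iff.2 ⟨g', ?_⟩)
      have hgi : g'⁻¹ * w = w * g'⁻¹ := by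
        rw [inv_mul_eq_iff_eq_mul, ← mul_assoc, hg', mul_inv_cancel_right]
      calc g' * (w * t) * g'⁻¹ = g' * t * (w * g'⁻¹) := by rw [hwt]; group
        _ = g' * t * g'⁻¹ * w := by rw [← hgi]; group)
    rcases h1 with h1 | h1
    · exact Or.inl h1
    · right; rw [h1, hwt]) (fun h1 => hwc (hcw.trans h1))
  exact ⟨g, w, huw, Or.inr ⟨K, ↥(fixedSubgroup x), inferInstance, f, hf⟩⟩

end Cfsg.Agent.H877.C3
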