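import Cfsg.Agent.H738.C3.Tools
import Cfsg.Agent.CpAut.TwoAbs

/-!
# S1920, the rows of the Baby Monster and of the Monster: the reductions (helper877)

* `Conf.map` : transport of the configuration;
* `Red u K f` : `K ≤ C(u)` of index at most 2, `f : K → S` onto with kernel of order at most 4, the centralizers of the
  involutions of `S` are of characteristic 2;
* `kill_red`, `kill_ct` : no configuration in `Γ`, `θ : B → Γ`, `p : B → X` onto with kernel of order at most 2.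
-/

set_option autoImplicit false
set_option linter.unusedSectionVars false

open Subgroup

namespace Cfsg.Agent.H877.C3

open Cfsg Cfsg.Agent.H738.C3

section transport

variable {G G' : Type*} [Group G] [Group G'] {z : G} {N0 : Subgroup G}

theorem act_map (e : G ≃* G') {g : G} : Act (e z) (N0.map e.toMonoidHom) (e g) ↔ Act z N0 g := by
  have hz : ∀ x : G, e x ∈ zpowers (e z) ↔ x ∈ zpowers z := by
    intro x
    constructor
    · rintro ⟨k, hk⟩
      refine ⟨k, e.injective ?_⟩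
      rw [← hk]
      exact map_zpow e z k
    · rintro ⟨k, rfl⟩
      exact ⟨k, (map_zpow e z k).symm⟩
  constructor
  · intro h a ha
    have h1 := h (e a) ⟨a, ha, rfl⟩
    rw [← map_inv, ← map_inv, ← map_mul, ← map_mul, ← map_mul] at h1
    exact (hz _).1 h1
  · rintro h _ ⟨a, ha, rfl⟩
    show e g * e a * (e g)⁻¹ * (e a)⁻¹ ∈ _
    rw [← map_inv, ← map_inv, ← map_mul, ← map_mul, ← map_mul]
    exact (hz _).2 (h a ha)

/-- **Transport of the configuration.** -/
theorem conf_map (C : Conf z N0) (e : G ≃* G') : Conf (e z) (N0.map e.toMonoidHom) where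
  ord := by rw [MulEquiv.orderOf_eq]; exact C.ord
  mem := ⟨z, C.mem, rfl⟩
  card := by
    rw [← C.card]
    exact (Nat.card_congr (N0.equivMapOfInjective e.toMonoidHom e.injective).toEquiv).symm
  comm := by
    rintro _ ⟨a, ha, rfl⟩
    exact (act_map e).2 (C.comm a ha)
  sq := by
    rintro _ ⟨a, ha, rfl⟩
    obtain ⟨k, hk⟩ := C.sq a ha
    refine ⟨k, ?_⟩
    show e z ^ k = e a * e a
    rw [← map_zpow, ← map_mul]
    exact congrArg e hk
  kill := by
    intro W hW hWA hWn c hc w hw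
    have key := C.kill (W.comap e.toMonoidHom) (hW.comap_of_injective e.toMonoidHom e.injective) ?_ ?_ (e.symm c) ?_
      (e.symm w) ?_
    · have h1 := congrArg e key
      rwa [map_mul, map_mul, e.apply_symm_apply, e.apply_symm_apply] at h1
    · intro w hw
      exact (act_map e).1 (hWA _ hw)
    · intro g hg w hw
      show e (g * w * g⁻¹) ∈ W
      rw [map_mul, map_mul, map_inv]
      exact hWn _ ((act_map e).2 hg) _ hw
    · intro a ha
      apply e.injective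
      rw [map_mul, map_mul, e.apply_symm_apply]
      exact hc _ ⟨a, ha, rfl⟩
    · show e (e.symm w) ∈ W
      rwa [e.apply_symm_apply]

/-- Transport of the elements of `C(N0)`. -/
theorem comm_map (e : G ≃* G') {y : G} (hy : ∀ a ∈ N0, y * a = a * y) :
    ∀ a ∈ N0.map e.toMonoidHom, e y * a = a * e y := by
  rintro _ ⟨a, ha, rfl⟩
  show e y * e a = e a * e y
  rw [← map_mul, hy a ha, map_mul]

end transport

/-- The reduction at the involution `u`. -/
structure Red {X : Type*} [Group X] (u : X) (K : Subgroup X) {S : Type*} [Group S] (f : ↥K →* S) : Prop where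
  idx : ∀ g h, g * u = u * g → h * u = u * h → g ∉ K → h ∉ K → g * h ∈ K
  surj : Function.Surjective f
  ker_card : Nat.card ↥f.ker ≤ 4
  ker_two : IsPGroup 2 ↥f.ker
  one : ∀ h : u ∈ K, f ⟨u, h⟩ = 1
  nrm : ∀ g, g * u = u * g → ∀ k ∈ K, g * k * g⁻¹ ∈ K
  inv : ∀ g (hg : g * u = u * g) (k : ↥K), f k = 1 → f ⟨g * k * g⁻¹, nrm g hg k k.2⟩ = 1
  ch : ∀ v : S, orderOf v = 2 → IsOfCharacteristicTwo ↥(centralizer ({v} : Set S))

section kill

variable {Γ B X : Type*} [Group Γ] [Group B] [Group X] [Finite Γ] {z : Γ} {N0 : Subgroup Γ}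

theorem comap_surj {B X : Type*} [Group B] [Group X] {p : B →* X} (hp : Function.Surjective p) (K : Subgroup X) :
    Function.Surjective (p.subgroupComap K) := by
  rintro ⟨x, hx⟩
  obtain ⟨b, rfl⟩ := hp x
  exact ⟨⟨b, hx⟩, rfl⟩

/-- A subgroup `K` as in `idx` contains the elements of odd order. -/
theorem mem_of_odd {X : Type*} [Group X] {K : Subgroup X} {g : X} (h : g ∉ K → g * g ∈ K) (ho : Odd (orderOf g)) :
    g ∈ K := by
  by_contra hg
  have h1 := h hg
  obtain ⟨k, hk⟩ := ho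
  apply hg
  have h2 : g = (g * g) ^ (k + 1) := by
    rw [← pow_two, ← pow_mul, show 2 * (k + 1) = orderOf g + 1 by omega, pow_succ, pow_orderOf_eq_one, one_mul]
  rw [h2]
  exact pow_mem h1 _

theorem mem_zp' {z x : Γ} (hz : orderOf z = 2) (hx : x ∈ zpowers z) : x = 1 ∨ x = z := mem_zp hz hx

/-- **The reduction.** -/
theorem kill_red (C : Conf z N0) {y : Γ} (hy1 : y ≠ 1) (ho : Odd (orderOf y)) (hyN : ∀ a ∈ N0, y * a = a * y)
    {θ : B →* Γ} (hθ : Function.Injective θ) (hA : ∀ g, Act z N0 g → ∃ b, θ b = g)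
    {p : B →* X} (hp : Function.Surjective p) (hpk : Nat.card ↥p.ker ≤ 2) (hpk2 : IsPGroup 2 ↥p.ker)
    {u : X} {K : Subgroup X} {S : Type*} [Group S] {f : ↥K →* S} (R : Red u K f)
    (hu : ∀ b, Act z N0 (θ b) → p b * u = u * p b) (hz : ∀ b, θ b = z → p b = 1 ∨ p b = u) : False := by
  classical
  have hfB : Finite B := Finite.of_injective θ hθ
  have hfX : Finite X := Finite.of_surjective p hp
  -- the map on `θ (p⁻¹ K)`
  let K₁ : Subgroup B := K.comap p
  let e : ↥K₁ ≃* ↥(K₁.map θ) := K₁.equivMapOfInjective θ hθ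
  let F : ↥(K₁.map θ) →* S := (f.comp (p.subgroupComap K)).comp e.symm.toMonoidHom
  have hF : ∀ (b : B) (hb : p b ∈ K) (h : θ b ∈ K₁.map θ), F ⟨θ b, h⟩ = f ⟨p b, hb⟩ := by
    intro b hb h
    have h1 : e.symm ⟨θ b, h⟩ = ⟨b, hb⟩ := by
      rw [MulEquiv.symm_apply_eq]
      exact Subtype.ext rfl
    show f (p.subgroupComap K (e.symm ⟨θ b, h⟩)) = _
    rw [h1]
    rfl
  have hFs : Function.Surjective F :=
    (R.surj.comp (comap_surj hp K)).comp e.symm.surjective
  have hmem : ∀ b : B, p b ∈ K → θ b ∈ K₁.map θ := fun b hb => ⟨b, hb, rfl⟩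
  have hex : ∀ k ∈ K₁.map θ, ∃ b : B, p b ∈ K ∧ θ b = k := by
    rintro _ ⟨b, hb, rfl⟩
    exact ⟨b, hb, rfl⟩
  have hzp : ∀ x ∈ zpowers z, x = 1 ∨ x = z := fun x hx => mem_zp C.ord hx
  -- `F z = 1`
  have hFz : ∀ h : z ∈ K₁.map θ, F ⟨z, h⟩ = 1 := by
    intro h
    obtain ⟨b, hb, hbz⟩ := hex z h
    have h1 : (⟨z, h⟩ : ↥(K₁.map θ)) = ⟨θ b, hmem b hb⟩ := Subtype.ext hbz.symm
    rw [h1, hF b hb]
    rcases hz b hbz with h2 | h2
    · have : (⟨p b, hb⟩ : ↥K) = 1 := Subtype.ext h2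
      rw [this, map_one]
    · have h3 : u ∈ K := h2 ▸ hb
      have : (⟨p b, hb⟩ : ↥K) = ⟨u, h3⟩ := Subtype.ext h2
      rw [this, R.one]
  -- an element of `N0`
  obtain ⟨n, hn, hnK, hn1⟩ : ∃ n ∈ N0, ∃ h : n ∈ K₁.map θ, F ⟨n, h⟩ ≠ 1 := by
    by_contra hcon
    push Not at hcon
    let N : Subgroup B := N0.comap θ
    have hNcard : Nat.card ↥N = 64 := by
      rw [← C.card]
      refine Nat.card_congr (Equiv.ofBijective (fun b : ↥N => (⟨θ b, b.2⟩ : ↥N0)) ⟨?_, ?_⟩)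
      · intro a b hab
        exact Subtype.ext (hθ (congrArg Subtype.val hab))
      · rintro ⟨n, hn⟩
        obtain ⟨b, rfl⟩ := hA n (C.comm n hn)
        exact ⟨⟨b, hn⟩, rfl⟩
    have hNu : ∀ b ∈ N, p b * u = u * p b := fun b hb => hu b (C.comm _ hb)
    let A : Subgroup B := K₁ ⊓ N
    have h1 : Nat.card ↥N ≤ 2 * Nat.card ↥A := by
      by_cases hall : ∀ b ∈ N, p b ∈ K
      · have : N ≤ A := fun b hb => mem_inf.2 ⟨hall b hb, hb⟩
        have h2 := Nat.card_le_card_of_injective _ (Subgroup.inclusion_injective this)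
        omega
      · push Not at hall
        obtain ⟨h, hh, hhK⟩ := hall
        have hcard : 2 * Nat.card ↥A = Nat.card (Bool × ↥A) := by
          rw [Nat.card_prod, Nat.card_eq_fintype_card (α := Bool), Fintype.card_bool]
        rw [hcard]
        have hA2 : ∀ g ∈ N, p g ∉ K → h * g ∈ A := by
          intro g hg hgK
          refine mem_inf.2 ⟨?_, N.mul_mem hh hg⟩
          show p (h * g) ∈ K
          rw [map_mul]
          exact R.idx _ _ (hNu h hh) (hNu g hg) hhK hgK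
        refine Nat.card_le_card_of_injective (fun g : ↥N => if hg : p g ∈ K then (true, (⟨g, mem_inf.2 ⟨hg, g.2⟩⟩ : ↥A))
          else (false, (⟨h * g, hA2 g g.2 hg⟩ : ↥A))) ?_
        intro a b hab
        by_cases ha : p a ∈ K <;> by_cases hb : p b ∈ K
        · simp only [ha, hb, dif_pos] at hab
          exact Subtype.ext (congrArg (fun x : Bool × ↥A => ((x.2 : ↥A) : B)) hab)
        · simp [ha, hb] at hab
        · simp [ha, hb] at hab
        · simp only [ha, hb, dif_neg, not_false_eq_true] at hab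
          have := congrArg (fun x : Bool × ↥A => ((x.2 : ↥A) : B)) hab
          exact Subtype.ext (mul_left_cancel this)
    have h2 : Nat.card ↥A ≤ 2 * 4 := by
      have hf1 : ∀ a : ↥A, f ⟨p a, (mem_inf.1 a.2).1⟩ = 1 := by
        intro a
        have h3 := hcon (θ a) (mem_inf.1 a.2).2 (hmem _ (mem_inf.1 a.2).1)
        rwa [hF a (mem_inf.1 a.2).1] at h3
      let φ : ↥A →* ↥f.ker :=
        { toFun := fun a => ⟨⟨p a, (mem_inf.1 a.2).1⟩, hf1 a⟩
          map_one' := Subtype.ext (Subtype.ext (map_one p))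
          map_mul' := fun a b => Subtype.ext (Subtype.ext (map_mul p (a : B) b)) }
      have hk : Nat.card ↥φ.ker ≤ 2 := by
        refine le_trans (Nat.card_le_card_of_injective (fun a : ↥φ.ker => (⟨(a : ↥A), by
          have := a.2
          rw [MonoidHom.mem_ker] at this ⊢
          exact congrArg (fun x : ↥f.ker => ((x : ↥K) : X)) this⟩ : ↥p.ker)) ?_) hpk
        intro a b hab
        have h3 := congrArg (fun x : ↥p.ker => (x : B)) hab
        exact Subtype.ext (Subtype.ext h3)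
      rw [← φ.ker.card_mul_index, index_ker]
      refine Nat.mul_le_mul hk ?_
      refine le_trans ?_ R.ker_card
      exact Nat.card_le_card_of_injective _ φ.range.subtype_injective
    omega
  have hn2 : orderOf (F ⟨n, hnK⟩) = 2 := by
    refine orderOf_eq_prime ?_ hn1
    rw [pow_two, ← map_mul]
    have h1 : n * n ∈ zpowers z := C.sq n hn
    rcases hzp _ h1 with h2 | h2
    · have : (⟨n, hnK⟩ * ⟨n, hnK⟩ : ↥(K₁.map θ)) = 1 := Subtype.ext h2
      rw [this, map_one]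
    · have hzK : z ∈ K₁.map θ := by rw [← h2]; exact mul_mem hnK hnK
      have : (⟨n, hnK⟩ * ⟨n, hnK⟩ : ↥(K₁.map θ)) = ⟨z, hzK⟩ := Subtype.ext h2
      rw [this]
      exact hFz hzK
  have hKn : ∀ g, Act z N0 g → ∀ k ∈ K₁.map θ, g * k * g⁻¹ ∈ K₁.map θ := by
    intro g hg k hk
    obtain ⟨a, rfl⟩ := hA g hg
    obtain ⟨b, hb, rfl⟩ := hex k hk
    rw [← map_mul, ← map_inv, ← map_mul]
    apply hmem
    rw [map_mul, map_mul, map_inv]
    exact R.nrm _ (hu a hg) _ hb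
  have hyK : y ∈ K₁.map θ := by
    have hAy := act_of_comm (z := z) hyN
    obtain ⟨b, rfl⟩ := hA y hAy
    apply hmem
    refine mem_of_odd (fun h => R.idx _ _ (hu b hAy) (hu b hAy) h h) ?_
    refine Odd.of_dvd_nat ho ?_
    rw [orderOf_injective θ hθ]
    exact orderOf_map_dvd p b
  refine C.kill_quot F hFs ?_ hKn ?_ hFz hn hnK (R.ch _ hn2) hyK hy1 ho hyN
  · -- the kernel is a 2-group
    rintro ⟨⟨k, hk⟩, hkF⟩
    obtain ⟨b, hb, rfl⟩ := hex k hk
    rw [MonoidHom.mem_ker, hF b hb] at hkF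
    obtain ⟨i, hi⟩ := R.ker_two ⟨⟨p b, hb⟩, hkF⟩
    have hi' : p (b ^ 2 ^ i) = 1 := by
      rw [map_pow]
      exact congrArg (fun x : ↥f.ker => ((x : ↥K) : X)) hi
    obtain ⟨j, hj⟩ := hpk2 ⟨b ^ 2 ^ i, hi'⟩
    have hj' : (b ^ 2 ^ i) ^ 2 ^ j = 1 := congrArg Subtype.val hj
    refine ⟨i + j, Subtype.ext (Subtype.ext ?_)⟩
    show θ b ^ 2 ^ (i + j) = 1
    rw [pow_add, pow_mul, ← map_pow, ← map_pow, hj', map_one]
  · intro g hg k hk
    obtain ⟨k, hkK⟩ := k
    obtain ⟨a, rfl⟩ := hA g hg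
    obtain ⟨b, hb, rfl⟩ := hex k hkK
    rw [hF b hb] at hk
    have h1 := R.inv (p a) (hu a hg) ⟨p b, hb⟩ hk
    have hmm : p (a * b * a⁻¹) ∈ K := by
      rw [map_mul, map_mul, map_inv]
      exact R.nrm _ (hu a hg) _ hb
    have h2 : (⟨θ a * θ b * (θ a)⁻¹, hKn (θ a) hg _ hkK⟩ : ↥(K₁.map θ)) = ⟨θ (a * b * a⁻¹), hmem _ hmm⟩ :=
      Subtype.ext (by
        show θ a * θ b * (θ a)⁻¹ = θ (a * b * a⁻¹)
        rw [map_mul, map_mul, map_inv])
    rw [h2, hF _ hmm, ← h1]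
    congr 1
    apply Subtype.ext
    show p (a * b * a⁻¹) = p a * p b * (p a)⁻¹
    rw [map_mul, map_mul, map_inv]

/-- **The case of characteristic 2.** -/
theorem kill_ct (C : Conf z N0) {y : Γ} (hy1 : y ≠ 1) (ho : Odd (orderOf y)) (hyN : ∀ a ∈ N0, y * a = a * y)
    {θ : B →* Γ} (hθ : Function.Injective θ) (hA : ∀ g, Act z N0 g → ∃ b, θ b = g)
    {p : B →* X} (hp : Function.Surjective p) (hpk2 : IsPGroup 2 ↥p.ker)
    {n : B} (hn : θ n ∈ N0) (hz : ∀ b, θ b = z → p b = 1) (hZ : ∀ b, z * θ b = θ b * z)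
    (hch : IsOfCharacteristicTwo ↥(centralizer ({p n} : Set X))) : False := by
  classical
  let e : B ≃* ↥θ.range := MonoidHom.ofInjective hθ
  have he : ∀ b, e b = ⟨θ b, ⟨b, rfl⟩⟩ := fun b => rfl
  let F : ↥θ.range →* X := p.comp e.symm.toMonoidHom
  have hF : ∀ (b : B) (h : θ b ∈ θ.range), F ⟨θ b, h⟩ = p b := by
    intro b h
    show p (e.symm ⟨θ b, h⟩) = p b
    congr 1
    rw [MulEquiv.symm_apply_eq]
    rfl
  have hFz : ∀ h : z ∈ θ.range, F ⟨z, h⟩ = 1 := by
    intro h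
    obtain ⟨b, hb⟩ := id h
    have h1 : (⟨z, h⟩ : ↥θ.range) = ⟨θ b, ⟨b, rfl⟩⟩ := Subtype.ext hb.symm
    exact (congrArg F h1).trans ((hF b _).trans (hz b hb))
  have hKn : ∀ g, Act z N0 g → ∀ k ∈ θ.range, g * k * g⁻¹ ∈ θ.range := by
    rintro g hg _ ⟨b, rfl⟩
    obtain ⟨a, rfl⟩ := hA g hg
    exact ⟨a * b * a⁻¹, by rw [map_mul, map_mul, map_inv]⟩
  have hyR : y ∈ θ.range := by
    obtain ⟨b, hb⟩ := hA y (act_of_comm hyN)
    exact ⟨b, hb⟩
  refine C.kill_quot (n := θ n) F (hp.comp e.symm.surjective) ?_ hKn ?_ hFz hn ⟨n, rfl⟩ ?_ hyR hy1 ho hyN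
  · rintro ⟨⟨_, ⟨b, rfl⟩⟩, hk⟩
    have hk' : p b = 1 := (hF b _).symm.trans (MonoidHom.mem_ker.1 hk)
    obtain ⟨i, hi⟩ := hpk2 ⟨b, hk'⟩
    have hi' : b ^ 2 ^ i = 1 := congrArg Subtype.val hi
    refine ⟨i, Subtype.ext (Subtype.ext ?_)⟩
    show θ b ^ 2 ^ i = 1
    rw [← map_pow, hi', map_one]
  · rintro g hg ⟨_, ⟨b, rfl⟩⟩ hk
    obtain ⟨a, rfl⟩ := hA g hg
    have hk' : p b = 1 := (hF b _).symm.trans hk
    have h2 : (⟨θ a * θ b * (θ a)⁻¹, hKn (θ a) hg _ ⟨b, rfl⟩⟩ : ↥θ.range) = ⟨θ (a * b * a⁻¹), ⟨_, rfl⟩⟩ :=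
      Subtype.ext (by
        show θ a * θ b * (θ a)⁻¹ = θ (a * b * a⁻¹)
        rw [map_mul, map_mul, map_inv])
    refine (congrArg F h2).trans ((hF _ _).trans ?_)
    rw [map_mul, map_mul, map_inv, hk', mul_one, mul_inv_cancel]
  · have h3 : F ⟨θ n, ⟨n, rfl⟩⟩ = p n := hF n _
    exact h3.symm ▸ hch

end kill

end Cfsg.Agent.H877.C3
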