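import Cfsg.Agent.H877.C3.Red
import Cfsg.Agent.H877.C3.Char
import Cfsg.Agent.BabyComp.Main

/-!
# S1920, the rows of the Baby Monster and of the Monster: the classes `2A`, `2C` of the Baby Monster (helper877)

`red_A` : the reduction at the transposition `t`; `red_C` : at a product of two commuting transpositions;
`cases` : all the involutions.
-/

set_option autoImplicit false
set_option linter.unusedSectionVars false

open Subgroup

namespace Cfsg.Agent.H877.C3

open Cfsg Cfsg.Agent.BabyComp Cfsg.Agent.CpAut.TwoAbs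

universe u v

section two

variable {X : Type u} {E : Type v} [Group X] [Group E] [Finite X] [Finite E] {t : X} {X₀ : Subgroup X} {σ : ↥X₀ →* E}

/-- **The transposition `t`.** -/
theorem red_A (H : Sec.Data t σ)
    (hidx : ∀ g h, g * t = t * g → h * t = t * h → g ∉ X₀ → h ∉ X₀ → g * h ∈ X₀)
    (hE : ∀ v : E, orderOf v = 2 → IsOfCharacteristicTwo ↥(centralizer ({v} : Set E))) : Red t X₀ σ where
  idx := hidx
  surj := H.surj
  ker_card := by
    have hinj : Function.Injective (fun k : ↥σ.ker => (⟨((k : ↥X₀) : X), by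
        rcases (H.ker k).1 k.2 with h | h
        · rw [h]; exact one_mem _
        · rw [h]; exact mem_zpowers t⟩ : ↥(zpowers t))) := by
      intro a b hab
      have h := congrArg (fun y : ↥(zpowers t) => (y : X)) hab
      exact Subtype.ext (Subtype.ext h)
    refine (Nat.card_le_card_of_injective _ hinj).trans ?_
    rw [Nat.card_zpowers]
    exact (orderOf_le_of_pow_eq_one (by norm_num : 0 < 2) (by rw [pow_two, H.t_sq])).trans (by norm_num)
  ker_two := by
    rintro ⟨k, hk⟩
    refine ⟨1, Subtype.ext (Subtype.ext ?_)⟩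
    show (k : X) ^ 2 ^ 1 = 1
    rcases (H.ker k).1 hk with h | h
    · rw [h, one_pow]
    · rw [h, pow_one, pow_two, H.t_sq]
  one := fun h => (H.ker _).2 (Or.inr rfl)
  nrm := H.nrm
  inv := by
    intro g hg k hk
    rw [H.ker] at hk ⊢
    show g * (k : X) * g⁻¹ = 1 ∨ g * (k : X) * g⁻¹ = t
    rcases hk with h | h
    · left; rw [h]; group
    · right; rw [h, hg, mul_inv_cancel_right]
  ch := hE

/-- **The product `u` of two commuting transpositions `t`, `u t`.** -/
theorem red_C (H : Sec.Data t σ)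
    (hidx : ∀ g h, g * t = t * g → h * t = t * h → g ∉ X₀ → h ∉ X₀ → g * h ∈ X₀)
    (hE : ∀ v : E, orderOf v = 2 → IsOfCharacteristicTwo ↥(centralizer ({v} : Set E)))
    {u : X} (huu : u * u = 1) (hut : u * t = t * u) (huX : u ∉ X₀)
    (hsw : ∀ g, g * u = u * g → g * t * g⁻¹ = t ∨ g * t * g⁻¹ = u * t)
    (hnc : ¬ IsConj (u * t) u) :
    ∃ (K : Subgroup X) (x : MulAut E) (f : ↥K →* ↥(fixedSubgroup x)), Red u K f := by
  classical
  obtain ⟨x, hx, hxx⟩ := Sec.exists_aut H hut huu
  have hui : u⁻¹ = u := inv_eq_of_mul_eq_one_left huu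
  have hti : t⁻¹ = t := inv_eq_of_mul_eq_one_left H.t_sq
  let K : Subgroup X := centralizer ({t} : Set X) ⊓ centralizer ({u} : Set X)
  have hK : ∀ g : X, g ∈ K ↔ g * t = t * g ∧ g * u = u * g := by
    intro g
    rw [mem_inf, mem_centralizer_singleton_iff, mem_centralizer_singleton_iff]
  have huK : u ∈ K := (hK u).2 ⟨hut, rfl⟩
  -- the component in `X₀`
  have hmul : ∀ k ∈ K, k ∉ X₀ → k * u ∈ X₀ := fun k hk hkX => hidx _ _ ((hK k).1 hk).1 hut hkX huX
  have hmul' : ∀ k ∈ X₀, k * u ∉ X₀ := by
    intro k hk h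
    apply huX
    have : u = k⁻¹ * (k * u) := by group
    rw [this]
    exact mul_mem (inv_mem hk) h
  let pr : ↥K → ↥X₀ := fun k => if h : (k : X) ∈ X₀ then ⟨k, h⟩ else ⟨(k : X) * u, hmul k k.2 h⟩
  have pr_in : ∀ (k : ↥K) (h : (k : X) ∈ X₀), pr k = ⟨k, h⟩ := fun k h => dif_pos h
  have pr_out : ∀ (k : ↥K) (h : (k : X) ∉ X₀), pr k = ⟨(k : X) * u, hmul k k.2 h⟩ := fun k h => dif_neg h
  have pr_mul : ∀ a b : ↥K, pr (a * b) = pr a * pr b := by
    intro a b
    have hbu : (b : X) * u = u * b := ((hK b).1 b.2).2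
    have hau : (a : X) * u = u * a := ((hK a).1 a.2).2
    by_cases ha : (a : X) ∈ X₀ <;> by_cases hb : (b : X) ∈ X₀
    · rw [pr_in a ha, pr_in b hb, pr_in (a * b) (mul_mem ha hb)]
      rfl
    · have hab : ((a * b : ↥K) : X) ∉ X₀ := by
        intro h
        apply hb
        have : (b : X) = (a : X)⁻¹ * ((a * b : ↥K) : X) := by
          rw [coe_mul]; group
        rw [this]
        exact mul_mem (inv_mem ha) h
      rw [pr_in a ha, pr_out b hb, pr_out (a * b) hab]
      apply Subtype.ext
      show (a : X) * b * u = a * (b * u)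
      rw [mul_assoc]
    · have hab : ((a * b : ↥K) : X) ∉ X₀ := by
        intro h
        apply ha
        have : (a : X) = ((a * b : ↥K) : X) * (b : X)⁻¹ := by
          rw [coe_mul]; group
        rw [this]
        exact mul_mem h (inv_mem hb)
      rw [pr_out a ha, pr_in b hb, pr_out (a * b) hab]
      apply Subtype.ext
      show (a : X) * b * u = a * u * b
      rw [mul_assoc, hbu, ← mul_assoc]
    · have hab : ((a * b : ↥K) : X) ∈ X₀ := hidx _ _ ((hK a).1 a.2).1 ((hK b).1 b.2).1 ha hb
      rw [pr_out a ha, pr_out b hb, pr_in (a * b) hab]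
      apply Subtype.ext
      show (a : X) * b = a * u * (b * u)
      rw [hbu]
      calc (a : X) * b = a * 1 * b := by rw [mul_one]
        _ = a * u * (u * b) := by rw [← huu]; group
  have pr_fix : ∀ k : ↥K, x (σ (pr k)) = σ (pr k) := by
    intro k
    rw [hx]
    congr 1
    apply Subtype.ext
    rw [Sec.cj_coe]
    have hku : (k : X) * u = u * k := ((hK k).1 k.2).2
    by_cases h : (k : X) ∈ X₀
    · rw [pr_in k h]
      show u * (k : X) * u⁻¹ = k
      rw [← hku, mul_inv_cancel_right]
    · rw [pr_out k h]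
      show u * ((k : X) * u) * u⁻¹ = k * u
      calc u * ((k : X) * u) * u⁻¹ = u * k := by group
        _ = k * u := hku.symm
  let f : ↥K →* ↥(fixedSubgroup x) :=
    { toFun := fun k => ⟨σ (pr k), pr_fix k⟩
      map_one' := by
        apply Subtype.ext
        show σ (pr 1) = 1
        rw [pr_in 1 (one_mem _)]
        exact map_one σ
      map_mul' := fun a b => by
        apply Subtype.ext
        show σ (pr (a * b)) = σ (pr a) * σ (pr b)
        rw [pr_mul, map_mul] }
  have hfc : ∀ k : ↥K, ((f k : ↥(fixedSubgroup x)) : E) = σ (pr k) := fun k => rfl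
  -- the kernel
  have hker : ∀ k : ↥K, f k = 1 ↔ ((k : X) = 1 ∨ (k : X) = t ∨ (k : X) = u ∨ (k : X) = t * u) := by
    intro k
    have h1 : f k = 1 ↔ σ (pr k) = 1 := ⟨fun h => congrArg Subtype.val h, fun h => Subtype.ext h⟩
    rw [h1, H.ker]
    by_cases h : (k : X) ∈ X₀
    · rw [pr_in k h]
      show (k : X) = 1 ∨ (k : X) = t ↔ _
      constructor
      · rintro (h2 | h2)
        · exact Or.inl h2
        · exact Or.inr (Or.inl h2)
      · rintro (h2 | h2 | h2 | h2)
        · exact Or.inl h2
        · exact Or.inr h2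
        · exact absurd (h2 ▸ h) huX
        · exact absurd (h2 ▸ h) (hmul' t H.mem)
    · rw [pr_out k h]
      show (k : X) * u = 1 ∨ (k : X) * u = t ↔ _
      constructor
      · rintro (h2 | h2)
        · right; right; left
          rw [eq_inv_of_mul_eq_one_left h2, hui]
        · right; right; right
          rw [← h2, mul_assoc, huu, mul_one]
      · rintro (h2 | h2 | h2 | h2)
        · exact absurd (by rw [h2]; exact one_mem _) h
        · exact absurd (by rw [h2]; exact H.mem) h
        · left; rw [h2, huu]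
        · right; rw [h2, mul_assoc, huu, mul_one]
  have hswap : ∀ g, g * u = u * g → g * (u * t) * g⁻¹ = t ∨ g * (u * t) * g⁻¹ = u * t := by
    intro g hg
    have h1 : g * (u * t) * g⁻¹ = u * (g * t * g⁻¹) := by
      rw [← mul_assoc, hg]; group
    rcases hsw g hg with h | h
    · right; rw [h1, h]
    · left; rw [h1, h, ← mul_assoc, huu, one_mul]
  have hnrm : ∀ g, g * u = u * g → ∀ k ∈ K, g * k * g⁻¹ ∈ K := by
    intro g hg k hk
    obtain ⟨h1, h2⟩ := (hK k).1 hk
    have hgi : g⁻¹ * u = u * g⁻¹ := by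
      rw [inv_mul_eq_iff_eq_mul, ← mul_assoc, hg, mul_inv_cancel_right]
    rw [hK]
    constructor
    · have h3 : k * (g⁻¹ * t * g) = (g⁻¹ * t * g) * k := by
        have h4 := hsw g⁻¹ hgi
        rw [inv_inv] at h4
        rcases h4 with h4 | h4
        · rw [h4, h1]
        · rw [h4, ← mul_assoc, h2, mul_assoc, h1, mul_assoc]
      calc g * k * g⁻¹ * t = g * (k * (g⁻¹ * t * g)) * g⁻¹ := by group
        _ = g * ((g⁻¹ * t * g) * k) * g⁻¹ := by rw [h3]
        _ = t * (g * k * g⁻¹) := by group
    · calc g * k * g⁻¹ * u = g * k * (g⁻¹ * u) := by group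
        _ = g * (k * u) * g⁻¹ := by rw [hgi]; group
        _ = (g * u) * k * g⁻¹ := by rw [h2]; group
        _ = u * (g * k * g⁻¹) := by rw [hg]; group
  have hcl : ∀ k : ↥K, f k = 1 → (k : X) * k = 1 := by
    intro k hk
    rcases (hker k).1 hk with h | h | h | h
    · rw [h, one_mul]
    · rw [h, H.t_sq]
    · rw [h, huu]
    · rw [h]
      calc t * u * (t * u) = t * (u * t) * u := by group
        _ = (t * t) * (u * u) := by rw [hut]; group
        _ = 1 := by rw [H.t_sq, huu, one_mul]
  refine ⟨K, x, f, ?_⟩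
  refine ⟨?_, ?_, ?_, ?_, ?_, hnrm, ?_, ?_⟩
  · -- index
    intro g h hg hh hgK hhK
    have h1 : g * t * g⁻¹ = u * t := (hsw g hg).resolve_left (fun e => hgK ((hK g).2
      ⟨mul_inv_eq_iff_eq_mul.1 e, hg⟩))
    have h2 : h * t * h⁻¹ = u * t := (hsw h hh).resolve_left (fun e => hhK ((hK h).2
      ⟨mul_inv_eq_iff_eq_mul.1 e, hh⟩))
    rw [hK]
    constructor
    · have h3 : g * h * t * (g * h)⁻¹ = t := by
        calc g * h * t * (g * h)⁻¹ = g * (h * t * h⁻¹) * g⁻¹ := by group
          _ = (g * u) * t * g⁻¹ := by rw [h2]; group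
          _ = u * (g * t * g⁻¹) := by rw [hg]; group
          _ = t := by rw [h1, ← mul_assoc, huu, one_mul]
      exact mul_inv_eq_iff_eq_mul.1 h3
    · rw [mul_assoc, hh, ← mul_assoc, hg, mul_assoc]
  · -- surjective
    rintro ⟨a, ha⟩
    obtain ⟨m, rfl⟩ := H.surj a
    have ha' : x (σ m) = σ m := ha
    rw [hx, H.map_eq, Sec.cj_coe] at ha'
    rcases ha' with h | h
    · have hm : (m : X) ∈ K := (hK _).2 ⟨H.comm _ m.2, (mul_inv_eq_iff_eq_mul.1 h).symm⟩
      refine ⟨⟨m, hm⟩, Subtype.ext ?_⟩
      rw [hfc, pr_in ⟨m, hm⟩ m.2]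
    · exfalso
      apply hnc
      rw [mul_inv_eq_iff_eq_mul] at h
      refine isConj_iff.2 ⟨m, ?_⟩
      rw [mul_inv_eq_iff_eq_mul, h, hut, mul_assoc]
  · -- the kernel has order at most 4
    have hinj : Function.Injective (fun k : ↥f.ker => (⟨((k : ↥K) : X), by
        have := (hker k).1 k.2
        simp only [Finset.mem_insert, Finset.mem_singleton]
        exact this⟩ : ↥(({1, t, u, t * u} : Finset X)))) := by
      intro a b hab
      have h := congrArg (fun y : ↥(({1, t, u, t * u} : Finset X)) => (y : X)) hab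
      exact Subtype.ext (Subtype.ext h)
    refine (Nat.card_le_card_of_injective _ hinj).trans ?_
    rw [Nat.card_eq_fintype_card, Fintype.card_coe]
    exact Finset.card_le_four
  · rintro ⟨k, hk⟩
    refine ⟨1, Subtype.ext (Subtype.ext ?_)⟩
    show (k : X) ^ 2 ^ 1 = 1
    rw [pow_one, pow_two, hcl k hk]
  · intro h
    exact (hker _).2 (Or.inr (Or.inr (Or.inl rfl)))
  · intro g hg k hk
    rw [hker] at hk ⊢
    show g * (k : X) * g⁻¹ = 1 ∨ g * (k : X) * g⁻¹ = t ∨ g * (k : X) * g⁻¹ = u ∨ g * (k : X) * g⁻¹ = t * u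
    rcases hk with h | h | h | h
    · left; rw [h]; group
    · rw [h]
      rcases hsw g hg with h1 | h1
      · right; left; exact h1
      · right; right; right; rw [h1, hut]
    · right; right; left
      rw [h, hg, mul_inv_cancel_right]
    · rw [h, ← hut]
      rcases hswap g hg with h1 | h1
      · right; left; exact h1
      · right; right; right; exact h1
  · intro v hv
    refine ct_cent_fix hxx v (hE v ?_)
    rw [Subgroup.orderOf_coe, hv]

end two

end Cfsg.Agent.H877.C3
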